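import Cfsg.Agent.Lib.ToddCox.Fi22C0.P0
set_option autoImplicit false
set_option maxRecDepth 100000
namespace Cfsg.Agent.Lib.ToddCox.Fi22C0
theorem covered : Covered Eo inv W isH 15637 74770 := (Covered.trans (Covered.trans (Covered.trans (Covered.trans c0 (Covered.trans c1 c2)) (Covered.trans (Covered.trans c3 c4) (Covered.trans c5 c6))) (Covered.trans (Covered.trans (Covered.trans c7 c8) (Covered.trans c9 c10)) (Covered.trans (Covered.trans c11 c12) (Covered.trans c13 c14)))) (Covered.trans (Covered.trans (Covered.trans c15 (Covered.trans c16 c17)) (Covered.trans (Covered.trans c18 c19) (Covered.trans c20 c21))) (Covered.trans (Covered.trans (Covered.trans c22 c23) (Covered.trans c24 c25)) (Covered.trans (Covered.trans c26 c27) (Covered.trans c28 c29)))))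
theorem links : LinksOK Eo cF (2 * nEv) N ys 0 14080 := (LinksOK.trans (LinksOK.trans (LinksOK.trans k0 (LinksOK.trans k1 k2)) (LinksOK.trans (LinksOK.trans k3 k4) (LinksOK.trans k5 k6))) (LinksOK.trans (LinksOK.trans k7 (LinksOK.trans k8 k9)) (LinksOK.trans (LinksOK.trans k10 k11) (LinksOK.trans k12 k13))))
theorem defs : ∀ c, c < nDef → chkDef Eo inv c = true := defs_of_bits 15637 13 2 (by norm_num) (by
  intro j hj
  interval_cases j
  · exact d0
  · exact d1
  )
theorem words : ∀ j, j < nW → wordsOK W (relR Rb inv) inv sp j = true := allBelow_spec (by norm_num [nW]) wordsGood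
end Cfsg.Agent.Lib.ToddCox.Fi22C0
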